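import Cfsg.Agent.Lib.JT.Cnt
import Cfsg.Agent.Lib.FT.BG3.Main
import Cfsg.Agent.Lib.Small.Order24

set_option autoImplicit false
set_option linter.dupNamespace false

namespace Cfsg.Lib.JT

open Subgroup Cfsg.Lib Cfsg.Lib.FT Cfsg.Lib.GW Cfsg.Lib.Wal

universe u

variable {G : Type u} [Group G] [Finite G] {p n r s e : ℕ} {ε : ℤ}

variable {t w : G} {S Q R P Y : Subgroup G}

/-- elements of odd order of `C(y)`, `y` unipotent, lie in `O(C(y))` -/
theorem JT.npc_uni (h : JT G p n r s e ε) (ht : orderOf t = 2) (hQ : L2Uni (Lt t) Q p (p ^ n)) {y : G}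
    (hy : y ∈ Q) (y1 : y ≠ 1) : HasNormalPComplement 2 C1[y] := by
  have tt := cnt_sq ht
  have ty : t ∈ C1[y] := mem_c1_symm (commutator_le_self _ (hQ.le hy))
  obtain ⟨T, hT, tT⟩ := exists_isSylowIn_ge (isPGroup_zpowers_two tt) (zpowers_le.2 ty)
  have po : Odd p := h.pp.odd_of_ne_two h.p2
  have key : ∀ a ∈ Lt t, a ∈ C1[y] → a * a = 1 → a = 1 := fun a aL ay aa => by
    have := hQ.pow a (hQ.cent y hy y1 ▸ (⟨aL, ay⟩ : a ∈ Lt t ⊓ C1[y]))
    obtain ⟨k, hk⟩ := po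
    rwa [hk, pow_succ, pow_mul, pow_two a, aa, one_pow, one_mul] at this
  obtain ⟨S', hS', TS⟩ := exists_isSylowIn_ge hT.isPGroup (le_top : T ≤ ⊤)
  have e1 : T = zpowers t := le_antisymm (fun x hx => by
    have xx := h.sq S' hS' x (TS hx)
    have xt : x ∈ C1[t] := by
      have := h.ab T hT.isPGroup
      exact mem_c1.2 (setLike_mul_comm hx (tT (mem_zpowers t)))
    rcases h.inv t ht x xt xx with e | e
    · rw [key x e (hT.le hx) xx]
      exact one_mem _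
    · have := key _ e (mul_mem ty (hT.le hx)) (by
        rw [mul_assoc, ← mul_assoc x, mem_c1.1 xt, mul_assoc, xx, mul_one, tt])
      rw [eq_inv_of_mul_eq_one_right this]
      exact inv_mem (mem_zpowers t)) tT
  refine bg1_18 (e1 ▸ hT) fun g hg => ?_
  rw [centralizer_zpowers]
  have := (mem_normalizer_iff.1 hg.2 t).1 (mem_zpowers t)
  refine mem_c1_of_conj (((mem_zpowers_two tt).1 this).resolve_left fun e => ?_)
  have := cnt_ord g t
  rw [e, orderOf_one, ht] at this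
  exact absurd this (by decide)

/-- `|P| = q³` from the centralizer of a field automorphism -/
theorem BS.card_P' (b : BS t w S Q R P Y (3 ^ n)) (h : JT G 3 n r s e ε) (hiv : IV G r)
    (h3 : ¬ 3 ∣ e) (he : Nat.Coprime e (r * s)) {φ : G} (hφ : φ ∈ Ph S) (hl : (orderOf φ).Prime) {q₁ : ℕ}
    (hq : q₁ ^ orderOf φ = 3 ^ n) (hg : C1[t].relIndex C1[φ] = q₁ ^ 2 * (q₁ ^ 2 - q₁ + 1))
    (ti : P ≠ Q → ∀ g, g ∉ N[P] → (P ⊔ Y) ⊓ g •ᶜ N[P] = ⊥) :
    Nat.card P = (3 ^ n) ^ 3 := by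
  have := Fact.mk Nat.prime_three
  have := Fact.mk hl
  have tt := cnt_sq b.ht
  have le : orderOf φ ∣ e := h.phcard S b.hS ▸ orderOf_dvd_natCard _ hφ
  have l3 : ¬ 3 ∣ orderOf φ := fun d => h3 (d.trans le)
  have lr : (orderOf φ).Coprime r := (he.coprime_dvd_left le).coprime_mul_right_right
  have φ1 : φ ≠ 1 := fun e => by simp [e, Nat.not_prime_one] at hl
  have n0 : n ≠ 0 := h.nodd.pos.ne'
  obtain ⟨m, -, rfl⟩ := (Nat.dvd_prime_pow Nat.prime_three).1 (hq ▸ dvd_pow_self q₁ hl.ne_zero)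
  have m0 : m ≠ 0 := by
    rintro rfl
    rw [pow_zero, one_pow] at hq
    exact (Nat.one_lt_pow n0 (by norm_num)).ne hq
  have q3 : 3 ∣ 3 ^ m := dvd_pow_self 3 m0
  obtain ⟨F, _, _, f1, -, f2⟩ := h.fix S b.hS t b.tS b.ht φ hφ
  rw [Nat.pow_left_injective hl.ne_zero (f1.trans hq.symm)] at f2
  generalize hq₁ : 3 ^ m = q₁ at *
  have tφ : φ ∈ C1[t] := b.c_phS b.tS hφ
  -- the order of `C(t) ∩ C(φ)`
  obtain ⟨k, hk, k3⟩ : ∃ k, Nat.card ↥(C1[t] ⊓ C1[φ]) = k * Nat.card ↥(Lt t ⊓ C1[φ]) ∧ ¬ 3 ∣ k := by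
    refine ⟨(Lt t).relIndex (C1[t] ⊓ C1[φ]), ?_, fun d => ?_⟩
    · rw [← relIndex_mul_card (inf_le_inf_right C1[φ] b.c_Lt)]
      congr 1
      rw [← inf_relIndex_right (Lt t), ← inf_assoc, inf_eq_left.2 b.c_Lt]
    · have hO : zpowers t ⊔ Ph S ≤ C1[t] := sup_le (zpowers_le.2 (mem_c1.2 rfl)) (b.c_phS b.tS)
      have d1 := relIndex_dvd_card_of_le_sup (K := C1[t] ⊓ C1[φ]) (N := Lt t)
        (hO.trans (le_normalizer_commutator_left _ _))
        (inf_le_left.trans ((h.hS S b.hS t b.tS b.ht).le.trans (sup_le (sup_le (le_sup_left.trans le_sup_right)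
          le_sup_left) (le_sup_right.trans le_sup_right))))
      have d2 := card_sup_dvd_mul_of_le_normalizer ((b.c_phS b.tS).trans (c1_le_normalizer_zpowers t))
      rw [sup_comm, h.phcard S b.hS, Nat.card_zpowers, b.ht] at d2
      have := d.trans (d1.trans d2)
      rcases (Nat.Prime.dvd_mul Nat.prime_three).1 this with d | d
      · exact h3 d
      · exact absurd d (by decide)
  have a3 : ¬ 3 ∣ q₁ ^ 2 - 1 := by
    obtain ⟨c, rfl⟩ := q3
    have : 0 < (3 * c) ^ 2 := by rw [← hq₁]; positivity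
    have : (3 * c) ^ 2 = 3 * (3 * c ^ 2) := by ring
    omega
  have b3 : ¬ 3 ∣ q₁ ^ 2 - q₁ + 1 := by
    have := Nat.dvd_sub (q3.trans (dvd_pow_self q₁ two_ne_zero)) q3
    omega
  have cD : 2 * Nat.card C1[φ] = q₁ ^ 3 * ((q₁ ^ 2 - q₁ + 1) * (k * (q₁ ^ 2 - 1))) := by
    rw [← relIndex_mul_card (inf_le_right : C1[t] ⊓ C1[φ] ≤ C1[φ]), inf_relIndex_right, hg, hk]
    linear_combination (q₁ ^ 2 * (q₁ ^ 2 - q₁ + 1) * k) * f2
  have syl : ∀ P₁, IsSylowIn 3 P₁ C1[φ] → Nat.card P₁ = q₁ ^ 3 := fun P₁ h1 => by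
    obtain ⟨a, ha⟩ := IsPGroup.iff_card.1 h1.isPGroup
    have c1 := relIndex_mul_card h1.le
    rw [← c1, ha] at cD
    rw [ha]
    refine Nat.dvd_antisymm ?_ ?_
    · refine Nat.Coprime.dvd_of_dvd_mul_right (Nat.Coprime.pow_left _ ((Nat.Prime.coprime_iff_not_dvd Nat.prime_three).2 ?_))
        (cD ▸ Dvd.dvd.mul_left (dvd_mul_left _ _) 2)
      simp only [Nat.Prime.dvd_mul Nat.prime_three, not_or]
      exact ⟨b3, k3, a3⟩
    · have d0 : q₁ ^ 3 ∣ 2 * P₁.relIndex C1[φ] * 3 ^ a := by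
        rw [mul_assoc, cD]; exact dvd_mul_right _ _
      refine Nat.Coprime.dvd_of_dvd_mul_left ?_ d0
      rw [← hq₁, ← pow_mul]
      refine Nat.Coprime.pow_left _ ((Nat.Prime.coprime_iff_not_dvd Nat.prime_three).2 ?_)
      simp only [Nat.Prime.dvd_mul Nat.prime_three, not_or]
      exact ⟨by decide, h1.not_dvd_relIndex⟩
  obtain ⟨y, ⟨yQ, yφ⟩, y1⟩ : ∃ y ∈ Q ⊓ C1[φ], y ≠ 1 := by
    refine (bot_or_exists_ne_one _).resolve_left fun e0 => ?_
    have h1 := sm_card_modEq_card_inf_centralizer (p := orderOf φ) (A := zpowers φ) (T := Q)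
      (isPGroup_zpowers_of_orderOf rfl) (zpowers_le.2 (b.PhQ hφ))
    rw [centralizer_zpowers, e0, card_bot, b.hQ.card, ← (three_par h).1] at h1
    have h2 : orderOf φ ∣ 2 * r := by simpa using (Nat.modEq_iff_dvd' (Nat.le_add_left 1 _)).1 h1.symm
    have h4 : orderOf φ ∣ 2 := lr.dvd_of_dvd_mul_right h2
    exact not_two_dvd h.eodd (((Nat.prime_dvd_prime_iff_eq hl Nat.prime_two).1 h4) ▸ le)
  have hP := b.sylow h hiv h3
  by_cases hPQ : P = Q
  · exfalso
    subst hPQ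
    obtain ⟨P₁, h1, yP⟩ := exists_isSylowIn_ge (q := 3) (U := zpowers y)
      (isPGroup_zpowers_of_pow_eq_one (k := 1) (by rw [pow_one]; exact b.hQ.pow y yQ)) (zpowers_le.2 yφ)
    have comm : ∀ a ∈ P, ∀ c ∈ P, a * c = c * a := fun a ha c hc => by
      by_cases c1 : c = 1
      · simp [c1]
      · exact mem_c1.1 ((b.hQ.cent c hc c1).ge ha).2
    have Py : P₁ ≤ C1[y] := fun x hx => by
      obtain ⟨g, -, hg⟩ := hP.exists_conj_le h1.isPGroup le_top
      have := comm _ (hg (conj_mem_conj hx g)) _ (hg (conj_mem_conj (yP (mem_zpowers y)) g))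
      exact mem_c1.2 ((MulAut.conj g).injective (by simpa only [map_mul, MulAut.conj_apply] using this))
    have npc := h.npc_uni b.ht b.hQ yQ y1
    have ty : t ∈ C1[y] := mem_c1_symm (b.c_Lt (b.hQ.le yQ))
    have tK : t ∈ N[O[C1[y]]] := le_normalizer_piCoreOf _ _ ty
    have P1K : P₁ ≤ O[C1[y]] := le_piCoreOf_of_hasNormalPComplement npc Py
      (not_two_dvd (odd_of_isPGroup (by decide) h1.isPGroup))
    have PK : P ≤ O[C1[y]] := le_piCoreOf_of_hasNormalPComplement npc (fun x hx => mem_c1.2 (comm x hx y yQ))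
      (not_two_dvd b.c_oddP)
    obtain ⟨P₂, h2, t2⟩ := (copAct_inv tt (odd_of_le (odd_oc _) inf_le_left)
      (mem_normalizer_inf_c1 tK (mem_c1_symm tφ))).exists_isSylowIn 3
    obtain ⟨c, hc, hle⟩ := (copAct_inv tt (odd_oc _) tK).exists_conj_le_isSylowIn (hP.mono PK le_top)
      (zpowers_le.2 b.c_tB) h2.isPGroup (h2.le.trans inf_le_left) t2
    have P2t : P₂ ≤ C1[t] := le_of_conj_le (hle.trans (b.hQ.le.trans b.c_Lt))
      (le_normalizer (centralizer_zpowers t ▸ hc.2))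
    have d1 := (h2.card_dvd h1.isPGroup (le_inf P1K h1.le)).trans
      (card_dvd_of_le (le_inf P2t (h2.le.trans inf_le_right)))
    rw [syl P₁ h1, hk] at d1
    have d2 : q₁ * q₁ ^ 2 ∣ q₁ * (k * (q₁ ^ 2 - 1)) := by
      rw [← pow_succ']
      exact (d1.mul_left 2).trans (dvd_of_eq (by linear_combination k * f2))
    have q0 : 0 < q₁ := by rw [← hq₁]; positivity
    rcases (Nat.Prime.dvd_mul Nat.prime_three).1
      ((q3.trans (dvd_pow_self q₁ two_ne_zero)).trans (Nat.dvd_of_mul_dvd_mul_left q0 d2)) with d | d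
    · exact k3 d
    · exact a3 d
  · have hs : IsSylowIn 3 (P ⊓ C1[φ]) C1[φ] := by
      obtain ⟨P₁, h1, hle⟩ := exists_isSylowIn_ge (U := P ⊓ C1[φ]) b.hP.to_inf_left inf_le_right
      obtain ⟨g, -, hg⟩ := hP.exists_conj_le h1.isPGroup le_top
      have gN : g⁻¹ ∈ N[P] := by
        by_contra hn
        refine y1 (mem_bot.1 ((ti hPQ _ hn).le ⟨mem_sup_left (b.c_QP yQ), ?_⟩))
        have := conj_mem_conj (le_normalizer (hg (conj_mem_conj (hle ⟨b.c_QP yQ, yφ⟩) g))) g⁻¹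
        simpa [mul_assoc] using this
      have : P₁ ≤ P := le_of_conj_le hg (inv_mem_iff.1 gN)
      rwa [le_antisymm hle (le_inf this h1.le)]
    have cφ : Nat.card (zpowers φ) = orderOf φ := Nat.card_zpowers φ
    have nR : zpowers φ ≤ N[R] := zpowers_le.2 (b.PhR hφ)
    have KR : ⁅R, zpowers φ⁆ ≤ R := le_normalizer_iff_commutator_le_left.mp nR
    have K0 : ⁅R, zpowers φ⁆ ≠ ⊥ := fun e0 => by
      have r2 : 2 < Nat.card R := by
        have := b.cardR
        have := h.q3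
        have := h.rodd
        rw [← b.c_cardR h] at this
        obtain ⟨k, hk⟩ := this
        omega
      have h1 : φ ∈ zpowers t ⊔ R := h.cT t b.ht R b.hR r2 ▸
        ⟨tφ, le_centralizer_of_commutator_eq_bot' e0 (mem_zpowers φ)⟩
      exact φ1 (mem_bot.1 (h.phL S b.hS t b.tS b.ht ▸ ⟨hφ, sup_le_sup_left b.hR.le _ h1⟩))
    have fr : IsFrob ⁅R, zpowers φ⁆ (zpowers φ) := isFrob_of_prime K0 (le_normalizer_commutator_right _ _)
      (cφ ▸ hl) (commutator_inf_centralizer_eq_bot_of_comm nR (by rw [cφ, b.c_cardR h]; exact lr)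
        b.wR.isMulCommutative)
    have := pf9_1c fr (V := P) (isSolvable_of_isPGroup b.hP)
      (sup_le (KR.trans b.c_RB) (zpowers_le.2 (b.c_XB (mem_sup_right hφ)))) (by
        rw [fr.card_sup, cφ]
        obtain ⟨a, ha⟩ := IsPGroup.iff_card.1 b.hP
        rw [ha]
        refine (Nat.Coprime.pow_left _ ((Nat.Prime.coprime_iff_not_dvd Nat.prime_three).2 ?_)).symm
        simp only [Nat.Prime.dvd_mul Nat.prime_three, not_or]
        refine ⟨fun d => ?_, l3⟩
        have d1 := d.trans (card_dvd_of_le KR)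
        have d2 := b.cardR
        have d3 : 3 ∣ 3 ^ n := dvd_pow_self 3 n0
        omega) (by
        obtain ⟨x, hx, x1⟩ := (bot_or_exists_ne_one _).resolve_left K0
        exact eq_bot_iff.2 ((inf_le_inf le_sup_left (centralizer_le_singleton hx)).trans
          (b.cent h hiv (KR hx) x1).le))
    rw [this, centralizer_zpowers, syl _ hs, cφ, ← hq, ← pow_mul, ← pow_mul, mul_comm]

end Cfsg.Lib.JT
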