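import Cfsg.Agent.Lib.JT.LF

/-! # No field automorphism of order `p` when `p ≠ 3` -/

set_option autoImplicit false

namespace Cfsg.Lib.JT

open Subgroup Cfsg.Lib Cfsg.Lib.FT Cfsg.Lib.GW Cfsg.Lib.Wal

universe u

variable {G : Type u} [Group G] [Finite G] {p n r s e : ℕ} {ε : ℤ}

/-- for `q ≡ 1 mod 4` unipotent elements are real -/
theorem npe_real {L U : Subgroup G} {q : ℕ} (hU : L2Uni L U p q) (hp : Odd p) (hq : q % 4 = 1) (q1 : 1 < q) :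
    ∃ j ∈ L, Inverts j U := by
  have := Fact.mk Nat.prime_two
  obtain ⟨j, hj, oj⟩ := exists_mem_orderOf_eq_of_dvd (p := 2) (H := L ⊓ N[U]) (by
    have h1 := hU.cardN
    obtain ⟨k, hk⟩ : ∃ k, q - 1 = 4 * k := ⟨q / 4, by omega⟩
    rw [hk] at h1
    exact ⟨q * k, by nlinarith⟩)
  refine ⟨j, hj.1, inverts_of_inf_eq_bot (lf_sq oj) hj.2 (eq_bot_iff.2 fun x hx => by_contra fun x1 => ?_)⟩
  have h1 : j ∈ U := hU.cent x hx.1 x1 ▸ (⟨hj.1, mem_C1_comm.1 hx.2⟩ : j ∈ L ⊓ C1[x])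
  have h2 := orderOf_dvd_of_pow_eq_one (hU.pow j h1)
  rw [oj] at h2
  exact absurd (even_iff_two_dvd.2 h2) (Nat.not_even_iff_odd.2 hp)

theorem JT.not_p_e (h : JT G p n r s e ε) (hd : DD G p n) (h3 : p ≠ 3) : ¬ p ∣ e := fun pe => by
  have := Fact.mk h.pp
  have := Fact.mk Nat.prime_two
  obtain ⟨S, hS⟩ := exists_isSylowIn 2 (⊤ : Subgroup G)
  obtain ⟨t, tS, ht⟩ := exists_mem_orderOf_eq_of_dvd (p := 2) (H := S) (by rw [h.card8 S hS]; decide)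
  obtain ⟨φ, hφ, oφ⟩ := exists_mem_orderOf_eq_of_dvd (p := p) (H := Ph S) (by rwa [h.phcard S hS])
  have hl : (orderOf φ).Prime := oφ ▸ h.pp
  have n0 : n ≠ 0 := h.nodd.pos.ne'
  obtain ⟨q₁, hq, hc⟩ := hd S hS t tS ht φ hφ hl
  have pq : p ∣ q₁ := h.pp.dvd_of_dvd_pow (hq ▸ dvd_pow_self p n0)
  rcases hc with ⟨rfl, -⟩ | ⟨rfl, hg⟩ | ⟨e3, -⟩
  · exact h3 ((Nat.prime_dvd_prime_iff_eq h.pp Nat.prime_three).1 pq)
  swap
  · exact h3 e3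
  obtain rfl : p = 5 := (Nat.prime_dvd_prime_iff_eq h.pp Nat.prime_five).1 pq
  have q4 : 5 ^ n % 4 = 1 := by rw [Nat.pow_mod]; simp
  have φH : φ ∈ C1[t] := mem_C1_comm.1 (h.lf_N hS hφ (le_normalizer tS))
  have nr : ∀ y : G, IsConj φ y → y ∉ Lt t := fun y e hL => by
    obtain ⟨c, rfl⟩ := isConj_iff.1 e
    have y1 : c * φ * c⁻¹ ≠ 1 := fun e => hl.ne_one (by rw [← BSW.orderOf_conj' c φ, e, orderOf_one])
    obtain ⟨j, hj⟩ : ∃ j : G, j * (c * φ * c⁻¹) * j⁻¹ = (c * φ * c⁻¹)⁻¹ := by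
      rcases (h.l2s t ht).cls _ hL y1 with ⟨U, hU, yU⟩ | ⟨T, hT, yT⟩
      · obtain ⟨j, -, hj⟩ := npe_real hU (by decide) q4 (by have := h.q3; omega)
        exact ⟨j, hj _ yU⟩
      · obtain ⟨j, -, -, -, hj, -⟩ := hT.inv
        exact ⟨j, hj _ yT⟩
    have e2 := h.lf_eq hS hφ (inv_mem hφ) (isConj_iff.2 ⟨c⁻¹ * j * c, by
      rw [show c⁻¹ * j * c * φ * (c⁻¹ * j * c)⁻¹ = c⁻¹ * (j * (c * φ * c⁻¹) * j⁻¹) * c by group, hj]; group⟩)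
    have h2 := orderOf_dvd_of_pow_eq_one (show φ ^ 2 = 1 by rw [pow_two]; nth_rw 1 [e2]; exact inv_mul_cancel φ)
    rw [oφ] at h2
    omega
  refine nr φ (IsConj.refl φ) (tl h.lf_perfect (p := 5) (P := C1[t]) (J := zpowers φ) (fun e => ?_) le_rfl
    (GW.isPGroup_zpowers_of_pow (n := 1) (by rw [pow_one, ← oφ, pow_orderOf_eq_one]))
    (by rw [← oφ, pow_orderOf_eq_one]) (mem_zpowers φ) (zpowers_le.2 (mem_C1_self φ)) φH fun g hg => ?_)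
  · have h1 := h.lf_cong hS tS ht hφ hl
    rw [oφ, hg] at h1
    have h2 := Int.natCast_dvd_natCast.2 e
    omega
  · have o : orderOf (g * φ * g⁻¹) = 5 := by rw [BSW.orderOf_conj', oφ]
    obtain ⟨k, hk, e'⟩ := h.lang S hS t tS ht _ (hg (conj_mem_conj (mem_zpowers φ) g)) (o ▸ Nat.prime_five)
      (by rw [o]; decide) (nr _ (isConj_iff.2 ⟨g, rfl⟩))
    have e := (h.lf_eq hS hφ e' ((isConj_iff.2 ⟨g, rfl⟩).trans (isConj_iff.2 ⟨k, rfl⟩))).symm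
    rw [show g * φ * g⁻¹ = k⁻¹ * φ * k by rw [← congrArg (fun z => k⁻¹ * z * k) e]; group,
      show φ⁻¹ * (k⁻¹ * φ * k) = φ⁻¹ * k⁻¹ * φ⁻¹⁻¹ * k⁻¹⁻¹ by group]
    have hk' : k ∈ C1[t] := (commutator_le_self _) hk
    exact commutator_mem_commutator (inv_mem φH) (inv_mem hk')

end Cfsg.Lib.JT
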